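import Mathlib.RepresentationTheory.Basic
import Mathlib.LinearAlgebra.BilinearForm.Orthogonal
import Mathlib.LinearAlgebra.Dimension.Finrank
import Mathlib.RingTheory.Artinian.Module
import Cfsg.Agent.ClassicalGeometry.InvolutiveNorm

/-!
# An isometry inverting an abelian group of odd order (helper447, for S5719)

`H` abelian of odd order, acting by isometries of a non-degenerate alternating form over a finite field `F` whose
characteristic does not divide `|H|`: there is an isometry `g` with `g ∘ ρ h = ρ h⁻¹ ∘ g` for all `h` (`main`).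
-/

set_option autoImplicit false

namespace Cfsg.Agent.H447.IFO

section

variable {F : Type*} [Field F] {H : Type*} [CommGroup H] {V : Type*} [AddCommGroup V] [Module F V]

/-- Factorisation of linear maps. -/
theorem exists_factor {E W : Type*} [AddCommGroup E] [Module F E] [AddCommGroup W] [Module F W]
    (α : E →ₗ[F] V) (β : E →ₗ[F] W) (h : ∀ e, α e = 0 → β e = 0) : ∃ φ : V →ₗ[F] W, ∀ e, φ (α e) = β e := by
  obtain ⟨t, ht⟩ := LinearMap.exists_rightInverse_of_surjective α.rangeRestrict (LinearMap.range_rangeRestrict α)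
  obtain ⟨π, hπ⟩ := LinearMap.exists_leftInverse_of_injective (LinearMap.range α).subtype
    (Submodule.ker_subtype _)
  refine ⟨β ∘ₗ t ∘ₗ π, fun e => ?_⟩
  have h1 : π (α e) = α.rangeRestrict e := by
    have := LinearMap.congr_fun hπ (α.rangeRestrict e)
    exact this
  have h2 : α (t (α.rangeRestrict e)) = α e := by
    have := LinearMap.congr_fun ht (α.rangeRestrict e)
    exact congrArg Subtype.val this
  change β (t (π (α e))) = β e
  rw [h1]
  have h3 : β (t (α.rangeRestrict e) - e) = 0 := h _ (by rw [map_sub, h2, sub_self])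
  rwa [map_sub, sub_eq_zero] at h3

variable (ρ : H →* Module.End F V)

/-- action of the group algebra -/
noncomputable def ac : MonoidAlgebra F H →ₐ[F] Module.End F V := MonoidAlgebra.lift F (Module.End F V) H ρ

/-- the involution of the group algebra -/
noncomputable def st (F : Type*) [Field F] (H : Type*) [CommGroup H] : MonoidAlgebra F H →ₐ[F] MonoidAlgebra F H :=
  MonoidAlgebra.lift F (MonoidAlgebra F H) H ((MonoidAlgebra.of F H).comp invMonoidHom)

theorem ac_single (h : H) (r : F) (v : V) : ac ρ (MonoidAlgebra.single h r) v = r • ρ h v := by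
  rw [ac, MonoidAlgebra.lift_single]
  rfl

theorem st_single (h : H) (r : F) : st F H (MonoidAlgebra.single h r) = MonoidAlgebra.single h⁻¹ r := by
  rw [st, MonoidAlgebra.lift_single]
  change r • MonoidAlgebra.of F H h⁻¹ = _
  rw [MonoidAlgebra.of_apply, MonoidAlgebra.smul_single, smul_eq_mul, mul_one]

theorem st_st (e : MonoidAlgebra F H) : st F H (st F H e) = e := by
  induction e using MonoidAlgebra.induction_linear with
  | zero => simp
  | add x y hx hy => rw [map_add, map_add, hx, hy]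
  | single h r => rw [st_single, st_single, inv_inv]

theorem ac_mul (e e' : MonoidAlgebra F H) (v : V) : ac ρ (e * e') v = ac ρ e (ac ρ e' v) := by
  rw [map_mul]; rfl

theorem ac_comm (e e' : MonoidAlgebra F H) (v : V) : ac ρ e (ac ρ e' v) = ac ρ e' (ac ρ e v) := by
  rw [← ac_mul, ← ac_mul, mul_comm]

/-- invariant subspaces -/
def Inv (W : Submodule F V) : Prop := ∀ h, ∀ w ∈ W, ρ h w ∈ W

variable {ρ}

theorem Inv.ac {W : Submodule F V} (hW : Inv ρ W) (e : MonoidAlgebra F H) {w : V} (hw : w ∈ W) : ac ρ e w ∈ W := by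
  induction e using MonoidAlgebra.induction_linear with
  | zero => rw [map_zero]; exact W.zero_mem
  | add x y hx hy => rw [map_add]; exact W.add_mem hx hy
  | single h r => rw [ac_single]; exact W.smul_mem _ (hW h w hw)

/-- minimal invariant subspaces -/
structure Sim (ρ : H →* Module.End F V) (W : Submodule F V) : Prop where
  inv : Inv ρ W
  ne : W ≠ ⊥
  min : ∀ Y ≤ W, Inv ρ Y → Y ≠ ⊥ → Y = W

theorem exists_sim [FiniteDimensional F V] {U : Submodule F V} (hU : Inv ρ U) (hne : U ≠ ⊥) :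
    ∃ W ≤ U, Sim ρ W := by
  obtain ⟨W, ⟨hWU, hW, hW0⟩, hmin⟩ := (wellFounded_lt (α := Submodule F V)).has_min
    {W | W ≤ U ∧ Inv ρ W ∧ W ≠ ⊥} ⟨U, le_rfl, hU, hne⟩
  refine ⟨W, hWU, hW, hW0, fun Y hY hYi hY0 => ?_⟩
  by_contra hcon
  exact hmin Y ⟨hY.trans hWU, hYi, hY0⟩ (lt_of_le_of_ne hY hcon)

/-- a minimal invariant subspace is cyclic -/
theorem Sim.cyc {W : Submodule F V} (hW : Sim ρ W) {w0 : V} (hw0 : w0 ∈ W) (h0 : w0 ≠ 0) {w : V} (hw : w ∈ W) :
    ∃ e, Cfsg.Agent.H447.IFO.ac ρ e w0 = w := by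
  let α : MonoidAlgebra F H →ₗ[F] V := (LinearMap.applyₗ w0) ∘ₗ (Cfsg.Agent.H447.IFO.ac ρ).toLinearMap
  have hα : ∀ e, α e = Cfsg.Agent.H447.IFO.ac ρ e w0 := fun e => rfl
  have h1 : LinearMap.range α = W := by
    apply hW.min
    · rintro _ ⟨e, rfl⟩
      rw [hα]
      exact hW.inv.ac e hw0
    · rintro h _ ⟨e, rfl⟩
      refine ⟨MonoidAlgebra.single h 1 * e, ?_⟩
      rw [hα, hα, ac_mul, ac_single, one_smul]
    · intro hb
      apply h0
      have : w0 ∈ LinearMap.range α := ⟨1, by rw [hα, map_one]; rfl⟩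
      rwa [hb, Submodule.mem_bot] at this
  rw [← h1] at hw
  exact hw

end

section Form

variable {F : Type*} [Field F] {H : Type*} [CommGroup H] {V : Type*} [AddCommGroup V] [Module F V]

/-- the data: an alternating form and isometries -/
structure Dat (ρ : H →* Module.End F V) (B : V →ₗ[F] V →ₗ[F] F) : Prop where
  iso : ∀ h v w, B (ρ h v) (ρ h w) = B v w
  alt : ∀ v, B v v = 0

variable {ρ : H →* Module.End F V} {B : V →ₗ[F] V →ₗ[F] F}

theorem Dat.swap (D : Dat ρ B) (v w : V) : B v w = - B w v := by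
  have h := D.alt (v + w)
  rw [map_add, map_add, LinearMap.add_apply, LinearMap.add_apply, D.alt, D.alt, zero_add, add_zero] at h
  exact eq_neg_of_add_eq_zero_right h

theorem Dat.adj (D : Dat ρ B) (e : MonoidAlgebra F H) (v w : V) : B (ac ρ e v) w = B v (ac ρ (st F H e) w) := by
  induction e using MonoidAlgebra.induction_linear with
  | zero => simp
  | add x y hx hy =>
    rw [map_add, map_add, map_add, LinearMap.add_apply, LinearMap.add_apply, map_add, map_add,
      LinearMap.add_apply, hx, hy]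
  | single h r =>
    rw [st_single, ac_single, ac_single, map_smul, map_smul, LinearMap.smul_apply, ← D.iso h v (ρ h⁻¹ w)]
    have : ρ h (ρ h⁻¹ w) = w := by
      rw [← Module.End.mul_apply, ← map_mul, mul_inv_cancel, map_one]; rfl
    rw [this]

theorem Dat.adj' (D : Dat ρ B) (e : MonoidAlgebra F H) (v w : V) : B (ac ρ (st F H e) v) w = B v (ac ρ e w) := by
  rw [D.adj, st_st]

/-- the orthogonal space -/
def perp (B : V →ₗ[F] V →ₗ[F] F) (W : Submodule F V) : Submodule F V where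
  carrier := {v | ∀ w ∈ W, B w v = 0}
  zero_mem' := fun w _ => map_zero _
  add_mem' := fun {a b} ha hb w hw => by rw [map_add, ha w hw, hb w hw, add_zero]
  smul_mem' := fun c v hv w hw => by rw [map_smul, hv w hw, smul_zero]

theorem mem_perp {W : Submodule F V} {v : V} : v ∈ perp B W ↔ ∀ w ∈ W, B w v = 0 := Iff.rfl

theorem Dat.perp_inv (D : Dat ρ B) {W : Submodule F V} (hW : Inv ρ W) : Inv ρ (perp B W) := by
  intro h v hv w hw
  have h1 := hv _ (hW h⁻¹ w hw)
  rw [← D.iso h] at h1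
  have : ρ h (ρ h⁻¹ w) = w := by
    rw [← Module.End.mul_apply, ← map_mul, mul_inv_cancel, map_one]; rfl
  rwa [this] at h1

/-- non-degenerate subspaces -/
def Nd (B : V →ₗ[F] V →ₗ[F] F) (U : Submodule F V) : Prop := ∀ u ∈ U, (∀ w ∈ U, B w u = 0) → u = 0

/-- the conclusion for a subspace -/
def Good (ρ : H →* Module.End F V) (B : V →ₗ[F] V →ₗ[F] F) (U : Submodule F V) : Prop :=
  ∃ g : V →ₗ[F] V, (∀ u ∈ U, g u ∈ U) ∧ (∀ u ∈ U, ∀ w ∈ U, B (g u) (g w) = B u w) ∧
    ∀ h, ∀ u ∈ U, g (ρ h u) = ρ h⁻¹ (g u)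

/-- the basic map between two minimal invariant subspaces in duality -/
theorem Dat.exists_phi (D : Dat ρ B) {W W' : Submodule F V} (hW : Sim ρ W) (hW' : Sim ρ W')
    (hd : ∀ w' ∈ W', (∀ w ∈ W, B w w' = 0) → w' = 0) {w0 w1 : V} (hw0 : w0 ∈ W) (h0 : w0 ≠ 0) (hw1 : w1 ∈ W') :
    ∃ φ : V →ₗ[F] V, ∀ e, φ (ac ρ e w0) = ac ρ (st F H e) w1 := by
  let α : MonoidAlgebra F H →ₗ[F] V := (LinearMap.applyₗ w0) ∘ₗ (ac ρ).toLinearMap
  let β : MonoidAlgebra F H →ₗ[F] V := (LinearMap.applyₗ w1) ∘ₗ (ac ρ).toLinearMap ∘ₗ (st F H).toLinearMap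
  obtain ⟨φ, hφ⟩ := exists_factor α β (by
    intro e he
    have he' : ac ρ e w0 = 0 := he
    change ac ρ (st F H e) w1 = 0
    apply hd _ (hW'.inv.ac _ hw1)
    intro w hw
    obtain ⟨e', rfl⟩ := hW.cyc hw0 h0 hw
    rw [← D.adj, ac_comm, he', map_zero, map_zero, LinearMap.zero_apply])
  exact ⟨φ, hφ⟩

/-- the annihilator of a vector -/
def annI (ρ : H →* Module.End F V) (w0 : V) : Ideal (MonoidAlgebra F H) where
  carrier := {e | ac ρ e w0 = 0}
  zero_mem' := by change ac ρ 0 w0 = 0; rw [map_zero]; rfl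
  add_mem' := by
    intro a b ha hb
    have ha' : ac ρ a w0 = 0 := ha
    have hb' : ac ρ b w0 = 0 := hb
    change ac ρ (a + b) w0 = 0
    rw [map_add, LinearMap.add_apply, ha', hb', add_zero]
  smul_mem' := by
    intro c x hx
    have hx' : ac ρ x w0 = 0 := hx
    change ac ρ (c • x) w0 = 0
    rw [smul_eq_mul, ac_mul, hx', map_zero]

theorem mem_annI {w0 : V} {e : MonoidAlgebra F H} : e ∈ annI ρ w0 ↔ ac ρ e w0 = 0 := Iff.rfl

theorem Sim.annI_max {W : Submodule F V} (hW : Sim ρ W) {w0 : V} (hw0 : w0 ∈ W) (h0 : w0 ≠ 0) :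
    (annI ρ w0).IsMaximal := by
  rw [Ideal.isMaximal_iff]
  refine ⟨?_, ?_⟩
  · intro h
    rw [mem_annI, map_one] at h
    exact h0 h
  · intro J x hJ hx hxJ
    obtain ⟨e, he⟩ := hW.cyc (hW.inv.ac x hw0) hx hw0
    have h1 : e * x - 1 ∈ annI ρ w0 := by
      rw [mem_annI, map_sub, map_one, LinearMap.sub_apply, ac_mul, he]
      exact sub_self _
    have h2 := J.sub_mem (J.mul_mem_left e hxJ) (hJ h1)
    rwa [sub_sub_cancel] at h2

theorem Dat.exists_c [Finite F] [FiniteDimensional F V] [Finite H] (D : Dat ρ B) (hodd : Odd (Nat.card H))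
    {W : Submodule F V} (hW : Sim ρ W) (hnd : Nd B W) {w0 : V} (hw0 : w0 ∈ W) (h0 : w0 ≠ 0) :
    ∃ c : MonoidAlgebra F H, ∀ w ∈ W, ac ρ c (ac ρ (st F H c) w) = - w := by
  have hmax := hW.annI_max hw0 h0
  let K := MonoidAlgebra F H ⧸ annI ρ w0
  let _ : Field K := Ideal.Quotient.field (annI ρ w0)
  have hVf : Finite V := Module.finite_of_finite F
  have hKf : Finite K := by
    let j : K → V := Quotient.lift (fun e : MonoidAlgebra F H => ac ρ e w0) (by
      intro a b hab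
      have h1 : a - b ∈ annI ρ w0 := by
        rw [← Ideal.Quotient.eq]
        exact Quotient.sound hab
      rw [mem_annI, map_sub, LinearMap.sub_apply, sub_eq_zero] at h1
      exact h1)
    refine Finite.of_injective j ?_
    intro a b
    obtain ⟨a, rfl⟩ := Ideal.Quotient.mk_surjective a
    obtain ⟨b, rfl⟩ := Ideal.Quotient.mk_surjective b
    intro hab
    have h1 : ac ρ a w0 = ac ρ b w0 := hab
    rw [Ideal.Quotient.eq, mem_annI, map_sub, LinearMap.sub_apply, h1, sub_self]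
  have hs : annI ρ w0 ≤ Ideal.comap (st F H).toRingHom (annI ρ w0) := by
    intro e he
    rw [Ideal.mem_comap]
    change ac ρ (st F H e) w0 = 0
    have he' : ac ρ e w0 = 0 := he
    apply hnd _ (hW.inv.ac _ hw0)
    intro w hw
    obtain ⟨e', rfl⟩ := hW.cyc hw0 h0 hw
    rw [← D.adj, ac_comm, he', map_zero, map_zero, LinearMap.zero_apply]
  let σ : K →+* K := Ideal.quotientMap (annI ρ w0) (st F H).toRingHom hs
  have hσ : ∀ e, σ (Ideal.Quotient.mk _ e) = Ideal.Quotient.mk _ (st F H e) := fun e => rfl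
  have hσ2 : ∀ a : K, σ (σ a) = a := by
    intro a
    obtain ⟨a, rfl⟩ := Ideal.Quotient.mk_surjective a
    rw [hσ, hσ, st_st]
  have hne : σ ≠ RingHom.id K := by
    intro hid
    -- `ρ h⁻¹ w0 = ρ h w0` for all `h`
    have h1 : ∀ h : H, ρ h w0 = w0 := by
      have h2 : ∀ h : H, ρ (h ^ 2) w0 = w0 := by
        intro h
        have h3 := hσ (MonoidAlgebra.single h 1)
        rw [hid, RingHom.id_apply, st_single, Ideal.Quotient.eq, mem_annI, map_sub, LinearMap.sub_apply, ac_single,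
          ac_single, one_smul, one_smul, sub_eq_zero] at h3
        rw [pow_two, map_mul, Module.End.mul_apply, h3, ← Module.End.mul_apply, ← map_mul, mul_inv_cancel, map_one]
        rfl
      have h4 : ∀ (h : H) (i : ℕ), ρ ((h ^ 2) ^ i) w0 = w0 := by
        intro h i
        induction i with
        | zero => rw [pow_zero, map_one]; rfl
        | succ i ih => rw [pow_succ, map_mul, Module.End.mul_apply, h2, ih]
      intro h
      obtain ⟨i, hi⟩ := hodd
      have h5 : (h ^ 2) ^ (i + 1) = h := by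
        rw [← pow_mul]
        have : 2 * (i + 1) = Nat.card H + 1 := by omega
        rw [this, pow_succ, pow_card_eq_one', one_mul]
      rw [← h5]
      exact h4 h _
    apply h0
    apply hnd _ hw0
    intro w hw
    obtain ⟨e, rfl⟩ := hW.cyc hw0 h0 hw
    clear hw
    induction e using MonoidAlgebra.induction_linear with
    | zero => simp
    | add x y hx hy => rw [map_add, LinearMap.add_apply, map_add, LinearMap.add_apply, hx, hy, add_zero]
    | single h r => rw [ac_single, h1, map_smul, LinearMap.smul_apply, D.alt, smul_zero]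
  obtain ⟨x, hx⟩ := Cfsg.Agent.ClassicalGeometry.InvolutiveNorm.exists_mul_sigma_eq hne hσ2
    (a := (-1 : K)) (by rw [map_neg, map_one])
  obtain ⟨c, rfl⟩ := Ideal.Quotient.mk_surjective x
  rw [hσ, ← map_mul, ← map_one (Ideal.Quotient.mk (annI ρ w0)), ← map_neg, Ideal.Quotient.eq, sub_neg_eq_add, mem_annI,
    map_add, map_one, LinearMap.add_apply, ac_mul] at hx
  have hx' : ac ρ c (ac ρ (st F H c) w0) = - w0 := by
    rw [eq_neg_iff_add_eq_zero]
    exact hx
  refine ⟨c, fun w hw => ?_⟩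
  obtain ⟨e, rfl⟩ := hW.cyc hw0 h0 hw
  rw [ac_comm ρ (st F H c) e, ac_comm ρ c e, hx', map_neg]

/-- the case of a non-degenerate minimal invariant subspace -/
theorem Dat.good_a [Finite F] [FiniteDimensional F V] [Finite H] (D : Dat ρ B) (hodd : Odd (Nat.card H))
    {W : Submodule F V} (hW : Sim ρ W) (hnd : Nd B W) : Good ρ B W := by
  obtain ⟨w0, hw0, h0⟩ := Submodule.exists_mem_ne_zero_of_ne_bot hW.ne
  obtain ⟨φ, hφ⟩ := D.exists_phi hW hW hnd hw0 h0 hw0
  obtain ⟨c, hc⟩ := D.exists_c hodd hW hnd hw0 h0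
  refine ⟨(ac ρ c) ∘ₗ φ, ?_, ?_, ?_⟩
  · intro u hu
    obtain ⟨e, rfl⟩ := hW.cyc hw0 h0 hu
    change ac ρ c (φ _) ∈ W
    rw [hφ]
    exact hW.inv.ac _ (hW.inv.ac _ hw0)
  · intro u hu w hw
    obtain ⟨e, rfl⟩ := hW.cyc hw0 h0 hu
    obtain ⟨e', rfl⟩ := hW.cyc hw0 h0 hw
    change B (ac ρ c (φ _)) (ac ρ c (φ _)) = _
    rw [hφ, hφ, D.adj, ac_comm ρ (st F H c) c, hc _ (hW.inv.ac _ hw0), map_neg, D.adj', ac_comm, ← D.adj', st_st,
      ← D.swap]
  · intro h u hu
    obtain ⟨e, rfl⟩ := hW.cyc hw0 h0 hu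
    change ac ρ c (φ _) = ρ h⁻¹ (ac ρ c (φ _))
    have h1 : ρ h (ac ρ e w0) = ac ρ (MonoidAlgebra.single h 1 * e) w0 := by rw [ac_mul, ac_single, one_smul]
    have h2 : ∀ v : V, ρ h⁻¹ v = ac ρ (MonoidAlgebra.single h⁻¹ 1) v := fun v => by rw [ac_single, one_smul]
    rw [h1, hφ, hφ, map_mul, st_single, ac_mul, h2, ac_comm]

/-- a projection commuting with the action (Maschke) -/
theorem exists_proj [Finite H] (hH : (Nat.card H : F) ≠ 0) {X : Submodule F V} (hX : Inv ρ X) :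
    ∃ π : V →ₗ[F] V, (∀ v, π v ∈ X) ∧ (∀ x ∈ X, π x = x) ∧ ∀ h v, π (ρ h v) = ρ h (π v) := by
  classical
  cases nonempty_fintype H
  obtain ⟨π0, hπ0⟩ := LinearMap.exists_leftInverse_of_injective X.subtype (Submodule.ker_subtype _)
  have hπ1 : ∀ x ∈ X, ((π0 x : X) : V) = x := fun x hx => congrArg Subtype.val (LinearMap.congr_fun hπ0 ⟨x, hx⟩)
  have hrr : ∀ (h : H) (v : V), ρ h (ρ h⁻¹ v) = v := by
    intro h v
    rw [← Module.End.mul_apply, ← map_mul, mul_inv_cancel, map_one]; rfl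
  let π : V →ₗ[F] V := (Nat.card H : F)⁻¹ • ∑ h : H, (ρ h) ∘ₗ X.subtype ∘ₗ π0 ∘ₗ (ρ h⁻¹)
  have hπ : ∀ v, π v = (Nat.card H : F)⁻¹ • ∑ h : H, ρ h ((π0 (ρ h⁻¹ v) : X) : V) := by
    intro v
    simp only [π, LinearMap.smul_apply, LinearMap.sum_apply, LinearMap.comp_apply, Submodule.subtype_apply]
  refine ⟨π, ?_, ?_, ?_⟩
  · intro v
    rw [hπ]
    exact X.smul_mem _ (X.sum_mem fun h _ => hX h _ (π0 _).2)
  · intro x hx
    rw [hπ]
    have h1 : ∀ h : H, ρ h ((π0 (ρ h⁻¹ x) : X) : V) = x := by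
      intro h
      rw [hπ1 _ (hX h⁻¹ x hx), hrr]
    rw [Finset.sum_congr rfl (fun h _ => h1 h), Finset.sum_const, Finset.card_univ, ← Nat.card_eq_fintype_card,
      ← Nat.cast_smul_eq_nsmul F, smul_smul, inv_mul_cancel₀ hH, one_smul]
  · intro k v
    rw [hπ, hπ, map_smul, map_sum]
    congr 1
    refine Fintype.sum_equiv (Equiv.mulLeft k⁻¹) _ _ fun h => ?_
    rw [Equiv.coe_mulLeft]
    have h1 : ρ k (ρ (k⁻¹ * h) ((π0 (ρ (k⁻¹ * h)⁻¹ v) : X) : V)) = ρ h ((π0 (ρ (k⁻¹ * h)⁻¹ v) : X) : V) := by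
      rw [← Module.End.mul_apply, ← map_mul, mul_inv_cancel_left]
    rw [h1]
    have h2 : ρ h⁻¹ (ρ k v) = ρ (k⁻¹ * h)⁻¹ v := by
      rw [← Module.End.mul_apply, ← map_mul]
      congr 3
      rw [mul_inv_rev, inv_inv]
    rw [h2]

theorem exp4 (B : V →ₗ[F] V →ₗ[F] F) (a b c d : V) : B (a + b) (c + d) = B a c + B a d + (B b c + B b d) := by
  rw [map_add B a b, LinearMap.add_apply, map_add (B a), map_add (B b)]

/-- gluing -/
theorem Dat.good_glue [FiniteDimensional F V] (D : Dat ρ B) {N U : Submodule F V} (hN : Inv ρ N) (hNd : Nd B N)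
    (hNU : N ≤ U) (h1 : Good ρ B N) (h2 : Good ρ B (perp B N ⊓ U)) : Good ρ B U := by
  obtain ⟨g1, h11, h12, h13⟩ := h1
  obtain ⟨g2, h21, h22, h23⟩ := h2
  -- the orthogonal projection on `N`
  have hsw : ∀ v w, B v w = - B w v := D.swap
  obtain ⟨π, hπ1, hπ2⟩ : ∃ π : V →ₗ[F] V, (∀ v, π v ∈ N) ∧ ∀ v, v - π v ∈ perp B N := by
    let b : N →ₗ[F] Module.Dual F N :=
      { toFun := fun n => (B n).comp N.subtype
        map_add' := fun x y => by ext z; simp
        map_smul' := fun c x => by ext z; simp }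
    have hb : ∀ n n' : N, b n n' = B n n' := fun n n' => rfl
    have hinj : Function.Injective b := by
      rw [injective_iff_map_eq_zero]
      intro n hn
      apply Subtype.ext
      apply hNd _ n.2
      intro w hw
      rw [hsw, ← hb n ⟨w, hw⟩, hn, LinearMap.zero_apply, neg_zero]
    have hsurj : Function.Surjective b := by
      rw [← LinearMap.range_eq_top]
      apply Submodule.eq_top_of_finrank_eq
      rw [LinearMap.finrank_range_of_inj hinj, Subspace.dual_finrank_eq]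
    let c : V →ₗ[F] Module.Dual F N :=
      { toFun := fun v => (B v).comp N.subtype
        map_add' := fun x y => by ext z; simp
        map_smul' := fun c x => by ext z; simp }
    obtain ⟨t, ht⟩ := LinearMap.exists_rightInverse_of_surjective b (LinearMap.range_eq_top.2 hsurj)
    refine ⟨N.subtype ∘ₗ t ∘ₗ c, fun v => (t (c v)).2, fun v => ?_⟩
    intro w hw
    have h3 : b (t (c v)) = c v := LinearMap.congr_fun ht (c v)
    have h4 : B (t (c v) : V) w = B v w := LinearMap.congr_fun h3 ⟨w, hw⟩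
    change B w (v - (t (c v) : V)) = 0
    rw [map_sub, hsw w v, hsw w, h4, sub_self]
  have hNN : ∀ x ∈ N, x ∈ perp B N → x = 0 := fun x hx hx' => hNd x hx hx'
  have hπρ : ∀ h v, π (ρ h v) = ρ h (π v) := by
    intro h v
    have h3 : π (ρ h v) - ρ h (π v) ∈ N := N.sub_mem (hπ1 _) (hN h _ (hπ1 v))
    have h4 : π (ρ h v) - ρ h (π v) ∈ perp B N := by
      have e : π (ρ h v) - ρ h (π v) = ρ h (v - π v) - (ρ h v - π (ρ h v)) := by rw [map_sub]; abel
      rw [e]
      exact (perp B N).sub_mem (D.perp_inv hN h _ (hπ2 v)) (hπ2 _)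
    exact sub_eq_zero.1 (hNN _ h3 h4)
  have hp : ∀ u ∈ U, u - π u ∈ perp B N ⊓ U := fun u hu => ⟨hπ2 u, U.sub_mem hu (hNU (hπ1 u))⟩
  have horth : ∀ x ∈ N, ∀ y ∈ perp B N ⊓ U, B x y = 0 := fun x hx y hy => hy.1 x hx
  have horth' : ∀ x ∈ N, ∀ y ∈ perp B N ⊓ U, B y x = 0 := fun x hx y hy => by rw [hsw, hy.1 x hx, neg_zero]
  refine ⟨g1 ∘ₗ π + g2 ∘ₗ (LinearMap.id - π), ?_, ?_, ?_⟩
  · intro u hu
    exact U.add_mem (hNU (h11 _ (hπ1 u))) (h21 _ (hp u hu)).2
  · intro u hu w hw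
    change B (g1 (π u) + g2 (u - π u)) (g1 (π w) + g2 (w - π w)) = B u w
    rw [exp4, h12 _ (hπ1 u) _ (hπ1 w), h22 _ (hp u hu) _ (hp w hw),
      horth _ (h11 _ (hπ1 u)) _ (h21 _ (hp w hw)), horth' _ (h11 _ (hπ1 w)) _ (h21 _ (hp u hu))]
    have e1 : B u w = B (π u + (u - π u)) (π w + (w - π w)) := by rw [add_sub_cancel, add_sub_cancel]
    rw [e1, exp4, horth _ (hπ1 u) _ (hp w hw), horth' _ (hπ1 w) _ (hp u hu)]
  · intro h u hu
    change g1 (π (ρ h u)) + g2 (ρ h u - π (ρ h u)) = ρ h⁻¹ (g1 (π u) + g2 (u - π u))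
    rw [hπρ, ← map_sub, h13 h _ (hπ1 u), h23 h _ (hp u hu), map_add]

/-- two totally isotropic minimal invariant subspaces in duality -/
theorem Dat.good_b [FiniteDimensional F V] (D : Dat ρ B) {W W' : Submodule F V} (hW : Sim ρ W) (hW' : Sim ρ W')
    (hi : ∀ v ∈ W, ∀ w ∈ W, B v w = 0) (hi' : ∀ v ∈ W', ∀ w ∈ W', B v w = 0)
    (hd : ∀ w' ∈ W', (∀ w ∈ W, B w w' = 0) → w' = 0) (hd' : ∀ w ∈ W, (∀ w' ∈ W', B w' w = 0) → w = 0) :
    Inv ρ (W ⊔ W') ∧ Nd B (W ⊔ W') ∧ Good ρ B (W ⊔ W') := by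
  obtain ⟨w0, hw0, h0⟩ := Submodule.exists_mem_ne_zero_of_ne_bot hW.ne
  obtain ⟨w1, hw1, h1⟩ := Submodule.exists_mem_ne_zero_of_ne_bot hW'.ne
  obtain ⟨φ, hφ⟩ := D.exists_phi hW hW' hd hw0 h0 hw1
  obtain ⟨ψ, hψ⟩ := D.exists_phi hW' hW hd' hw1 h1 hw0
  have hsw : ∀ v w, B v w = - B w v := D.swap
  have hdis : ∀ x ∈ W, x ∈ W' → x = 0 := fun x hx hx' => hd' x hx (fun w' hw' => hi' w' hw' x hx')
  have hφm : ∀ x ∈ W, φ x ∈ W' := by
    intro x hx
    obtain ⟨e, rfl⟩ := hW.cyc hw0 h0 hx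
    rw [hφ]
    exact hW'.inv.ac _ hw1
  have hψm : ∀ x ∈ W', ψ x ∈ W := by
    intro x hx
    obtain ⟨e, rfl⟩ := hW'.cyc hw1 h1 hx
    rw [hψ]
    exact hW.inv.ac _ hw0
  have hac : ∀ (h : H) (v : V), ρ h v = ac ρ (MonoidAlgebra.single h 1) v := fun h v => by rw [ac_single, one_smul]
  have hφρ : ∀ h, ∀ x ∈ W, φ (ρ h x) = ρ h⁻¹ (φ x) := by
    intro h x hx
    obtain ⟨e, rfl⟩ := hW.cyc hw0 h0 hx
    rw [hac h, ← ac_mul, hφ, hφ, map_mul, st_single, ac_mul, ← hac]
  have hψρ : ∀ h, ∀ x ∈ W', ψ (ρ h x) = ρ h⁻¹ (ψ x) := by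
    intro h x hx
    obtain ⟨e, rfl⟩ := hW'.cyc hw1 h1 hx
    rw [hac h, ← ac_mul, hψ, hψ, map_mul, st_single, ac_mul, ← hac]
  have hBφ : ∀ x ∈ W, ∀ y ∈ W', B (φ x) (ψ y) = - B x y := by
    intro x hx y hy
    obtain ⟨e, rfl⟩ := hW.cyc hw0 h0 hx
    obtain ⟨e', rfl⟩ := hW'.cyc hw1 h1 hy
    rw [hφ, hψ, D.adj', ac_comm, ← D.adj', st_st, hsw]
  obtain ⟨π, hπ⟩ : ∃ π : V →ₗ[F] V, (∀ x ∈ W, π x = x) ∧ ∀ y ∈ W', π y = 0 := by
    obtain ⟨C, hC⟩ := Submodule.exists_isCompl (W ⊔ W')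
    -- the sum map
    let α : (W × W') × C →ₗ[F] V :=
      (W.subtype.coprod W'.subtype).coprod C.subtype
    have hα : ∀ a b c, α ((a, b), c) = (a : V) + b + c := fun a b c => rfl
    obtain ⟨φ', hφ'⟩ := exists_factor α (W.subtype ∘ₗ LinearMap.fst F W W' ∘ₗ LinearMap.fst F (W × W') C) (by
      rintro ⟨⟨a, b⟩, c⟩ h
      rw [hα] at h
      change (a : V) = 0
      have h2 : (c : V) = 0 := by
        have h3 : (c : V) ∈ W ⊔ W' := by
          have : (c : V) = -((a : V) + b) := by rw [eq_neg_iff_add_eq_zero, add_comm]; exact h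
          rw [this]
          exact Submodule.neg_mem _ (Submodule.add_mem_sup a.2 b.2)
        exact (Submodule.disjoint_def.1 hC.disjoint) _ h3 c.2
      rw [h2, add_zero] at h
      apply hdis _ a.2
      rw [eq_neg_of_add_eq_zero_left h]
      exact W'.neg_mem b.2)
    refine ⟨φ', fun x hx => ?_, fun y hy => ?_⟩
    · have := hφ' ((⟨x, hx⟩, 0), 0)
      rw [hα] at this
      simpa using this
    · have := hφ' ((0, ⟨y, hy⟩), 0)
      rw [hα] at this
      simpa using this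
  obtain ⟨hπW, hπW'⟩ := hπ
  have hdec : ∀ u ∈ W ⊔ W', ∃ x ∈ W, ∃ y ∈ W', u = x + y := by
    intro u hu
    obtain ⟨x, hx, y, hy, rfl⟩ := Submodule.mem_sup.1 hu
    exact ⟨x, hx, y, hy, rfl⟩
  have hinv : Inv ρ (W ⊔ W') := by
    intro h u hu
    obtain ⟨x, hx, y, hy, rfl⟩ := hdec u hu
    rw [map_add]
    exact Submodule.add_mem_sup (hW.inv h x hx) (hW'.inv h y hy)
  refine ⟨hinv, ?_, ?_⟩
  · intro u hu hu0
    obtain ⟨x, hx, y, hy, rfl⟩ := hdec u hu
    have hy0 : y = 0 := hd y hy (fun w hw => by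
      have h3 := hu0 w (Submodule.mem_sup_left hw)
      rwa [map_add, hi w hw x hx, zero_add] at h3)
    have hx0 : x = 0 := hd' x hx (fun w hw => by
      have h3 := hu0 w (Submodule.mem_sup_right hw)
      rwa [map_add, hi' w hw y hy, add_zero] at h3)
    rw [hx0, hy0, add_zero]
  · obtain ⟨g, hg⟩ : ∃ g : V →ₗ[F] V, ∀ x ∈ W, ∀ y ∈ W', g (x + y) = φ x - ψ y := by
      refine ⟨φ ∘ₗ π - ψ ∘ₗ (LinearMap.id - π), ?_⟩
      intro x hx y hy
      change φ (π (x + y)) - ψ ((x + y) - π (x + y)) = _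
      rw [map_add π, hπW x hx, hπW' y hy, add_zero, add_sub_cancel_left]
    refine ⟨g, ?_, ?_, ?_⟩
    · intro u hu
      obtain ⟨x, hx, y, hy, rfl⟩ := hdec u hu
      rw [hg x hx y hy]
      exact Submodule.sub_mem _ (Submodule.mem_sup_right (hφm x hx)) (Submodule.mem_sup_left (hψm y hy))
    · intro u hu w hw
      obtain ⟨x, hx, y, hy, rfl⟩ := hdec u hu
      obtain ⟨x', hx', y', hy', rfl⟩ := hdec w hw
      rw [hg x hx y hy, hg x' hx' y' hy']
      rw [sub_eq_add_neg, sub_eq_add_neg, exp4, exp4, map_neg, map_neg, map_neg, LinearMap.neg_apply,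
        LinearMap.neg_apply, hi' _ (hφm x hx) _ (hφm x' hx'), hi _ (hψm y hy) _ (hψm y' hy'),
        hBφ x hx y' hy', hsw (ψ y) (φ x'), hBφ x' hx' y hy, hi x hx x' hx', hi' y hy y' hy', hsw y x']
      ring
    · intro h u hu
      obtain ⟨x, hx, y, hy, rfl⟩ := hdec u hu
      rw [map_add, hg _ (hW.inv h x hx) _ (hW'.inv h y hy), hg x hx y hy, hφρ h x hx, hψρ h y hy, map_sub]

theorem Dat.nd_or [FiniteDimensional F V] (D : Dat ρ B) {W : Submodule F V} (hW : Sim ρ W) :
    Nd B W ∨ ∀ v ∈ W, ∀ w ∈ W, B v w = 0 := by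
  by_cases h : W ⊓ perp B W = ⊥
  · left
    intro u hu hu0
    have : u ∈ W ⊓ perp B W := ⟨hu, hu0⟩
    rwa [h, Submodule.mem_bot] at this
  · right
    have h1 : W ⊓ perp B W = W := hW.min _ inf_le_left
      (fun h w hw => ⟨hW.inv h w hw.1, D.perp_inv hW.inv h w hw.2⟩) h
    intro v hv w hw
    rw [← h1] at hw
    exact hw.2 v hv

/-- **The induction.** -/
theorem Dat.good [Finite F] [FiniteDimensional F V] [Finite H] (D : Dat ρ B) (hodd : Odd (Nat.card H))
    (hH : (Nat.card H : F) ≠ 0) (n : ℕ) : ∀ U : Submodule F V, Inv ρ U → Nd B U → Module.finrank F U ≤ n → Good ρ B U := by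
  induction n with
  | zero =>
    intro U hU hUd hf
    have h1 : U = ⊥ := Submodule.finrank_eq_zero.1 (Nat.le_zero.1 hf)
    subst h1
    refine ⟨0, ?_, ?_, ?_⟩
    · intro u hu
      exact Submodule.zero_mem _
    · intro u hu w hw
      rw [(Submodule.mem_bot F).1 hu, (Submodule.mem_bot F).1 hw]
      simp
    · intro h u hu
      simp
  | succ n ih =>
    intro U hU hUd hf
    rcases eq_or_ne U ⊥ with hb | hb
    · exact ih U hU hUd (by rw [hb, finrank_bot]; exact Nat.zero_le _)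
    -- reduction to a nonzero non-degenerate `N ≤ U`
    have key : ∀ N ≤ U, N ≠ ⊥ → Inv ρ N → Nd B N → Good ρ B N → Good ρ B U := by
      intro N hNU hN0 hN hNd hg
      refine D.good_glue hN hNd hNU hg (ih _ ?_ ?_ ?_)
      · intro h u hu
        exact ⟨D.perp_inv hN h u hu.1, hU h u hu.2⟩
      · intro u hu hu0
        apply hUd u hu.2
        intro w hw
        -- `w = n + w'`
        obtain ⟨k, hk, hk'⟩ : ∃ k ∈ N, w - k ∈ perp B N := by
          let b : N →ₗ[F] Module.Dual F N :=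
            { toFun := fun n => (B n).comp N.subtype
              map_add' := fun x y => by ext z; simp
              map_smul' := fun c x => by ext z; simp }
          have hb' : ∀ n n' : N, b n n' = B n n' := fun n n' => rfl
          have hinj : Function.Injective b := by
            rw [injective_iff_map_eq_zero]
            intro n hn
            apply Subtype.ext
            apply hNd _ n.2
            intro w hw
            rw [D.swap, ← hb' n ⟨w, hw⟩, hn, LinearMap.zero_apply, neg_zero]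
          have hsurj : Function.Surjective b := by
            rw [← LinearMap.range_eq_top]
            apply Submodule.eq_top_of_finrank_eq
            rw [LinearMap.finrank_range_of_inj hinj, Subspace.dual_finrank_eq]
          obtain ⟨k, hk⟩ := hsurj ((B w).comp N.subtype)
          refine ⟨k, k.2, ?_⟩
          intro x hx
          have h4 : B (k : V) x = B w x := LinearMap.congr_fun hk ⟨x, hx⟩
          rw [map_sub, D.swap x w, D.swap x, h4, sub_self]
        have h5 : w - k ∈ perp B N ⊓ U := ⟨hk', U.sub_mem hw (hNU hk)⟩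
        have h6 := hu0 _ h5
        rw [map_sub, LinearMap.sub_apply, hu.1 k hk, sub_zero] at h6
        exact h6
      · have hlt : perp B N ⊓ U < U := by
          refine lt_of_le_of_ne inf_le_right ?_
          intro he
          apply hN0
          rw [Submodule.eq_bot_iff]
          intro x hx
          have h7 : x ∈ perp B N ⊓ U := by rw [he]; exact hNU hx
          exact hNd x hx h7.1
        have := Submodule.finrank_lt_finrank_of_lt hlt
        omega
    obtain ⟨W, hWU, hW⟩ := exists_sim hU hb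
    rcases D.nd_or hW with hWd | hWi
    · exact key W hWU hW.ne hW.inv hWd (D.good_a hodd hW hWd)
    -- `X = W^⊥ ∩ U`
    have hXi : Inv ρ (perp B W ⊓ U) := fun h u hu => ⟨D.perp_inv hW.inv h u hu.1, hU h u hu.2⟩
    obtain ⟨π, hπ1, hπ2, hπ3⟩ := exists_proj hH hXi
    have hCi : Inv ρ (LinearMap.ker π ⊓ U) := by
      intro h u hu
      refine ⟨?_, hU h u hu.2⟩
      have h1 : π u = 0 := hu.1
      change π (ρ h u) = 0
      rw [hπ3, h1, map_zero]
    have hC0 : LinearMap.ker π ⊓ U ≠ ⊥ := by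
      intro hc
      apply hW.ne
      rw [Submodule.eq_bot_iff]
      intro w hw
      apply hUd w (hWU hw)
      intro u hu
      have h1 : u - π u ∈ LinearMap.ker π ⊓ U := by
        refine ⟨?_, U.sub_mem hu (hπ1 u).2⟩
        change π (u - π u) = 0
        rw [map_sub, hπ2 _ (hπ1 u), sub_self]
      rw [hc, Submodule.mem_bot, sub_eq_zero] at h1
      have h2 : u ∈ perp B W := by rw [h1]; exact (hπ1 u).1
      rw [D.swap, h2 w hw, neg_zero]
    obtain ⟨W', hW'C, hW'⟩ := exists_sim hCi hC0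
    have hW'U : W' ≤ U := hW'C.trans inf_le_right
    rcases D.nd_or hW' with hWd | hWi'
    · exact key W' hW'U hW'.ne hW'.inv hWd (D.good_a hodd hW' hWd)
    have hd : ∀ w' ∈ W', (∀ w ∈ W, B w w' = 0) → w' = 0 := by
      intro w' hw' h1
      have h2 : w' ∈ perp B W ⊓ U := ⟨h1, hW'U hw'⟩
      have h3 := hπ2 w' h2
      have h4 : π w' = 0 := (hW'C hw').1
      rw [← h3, h4]
    have hd' : ∀ w ∈ W, (∀ w' ∈ W', B w' w = 0) → w = 0 := by
      have h1 : W ⊓ perp B W' = ⊥ := by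
        by_contra hcon
        have h2 : W ⊓ perp B W' = W := hW.min _ inf_le_left
          (fun h w hw => ⟨hW.inv h w hw.1, D.perp_inv hW'.inv h w hw.2⟩) hcon
        apply hW'.ne
        rw [Submodule.eq_bot_iff]
        intro w' hw'
        apply hd w' hw'
        intro w hw
        rw [← h2] at hw
        rw [D.swap, hw.2 w' hw', neg_zero]
      intro w hw h2
      have : w ∈ W ⊓ perp B W' := ⟨hw, h2⟩
      rwa [h1, Submodule.mem_bot] at this
    obtain ⟨h1, h2, h3⟩ := D.good_b hW hW' hWi hWi' hd hd'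
    refine key (W ⊔ W') (sup_le hWU hW'U) ?_ h1 h2 h3
    intro hbot
    apply hW.ne
    rw [eq_bot_iff, ← hbot]
    exact le_sup_left

/-- **An isometry inverting `H`.** -/
theorem Dat.exists_inverting [Finite F] [FiniteDimensional F V] [Finite H] (D : Dat ρ B) (hodd : Odd (Nat.card H))
    (hH : (Nat.card H : F) ≠ 0) (hnd : ∀ u, (∀ w, B w u = 0) → u = 0) :
    ∃ g : V →ₗ[F] V, (∀ u w, B (g u) (g w) = B u w) ∧ ∀ h u, g (ρ h u) = ρ h⁻¹ (g u) := by
  obtain ⟨g, -, h2, h3⟩ := D.good hodd hH _ ⊤ (fun h w _ => Submodule.mem_top)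
    (fun u _ hu => hnd u (fun w => hu w Submodule.mem_top)) le_rfl
  exact ⟨g, fun u w => h2 u Submodule.mem_top w Submodule.mem_top, fun h u => h3 h u Submodule.mem_top⟩

end Form

end Cfsg.Agent.H447.IFO
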