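import Cfsg.Agent.H447.IFO.Inv
import Cfsg.Agent.ClassicalGeometry.SympAutOddA
import Cfsg.Agent.ClassicalGeometry.SympAutExists

/-!
# Elementary abelian subgroups of `PSp_2m(q)` of odd order (helper447, for S5719)

* `lift` : the elementary abelian lift to `Sp_2m(q)`;
* `exists_even_normaliser` : `r ≠ char F`: an element of `PSp_2m(q)` inverting `R`.
-/

set_option autoImplicit false
set_option linter.unusedSectionVars false

namespace Cfsg.Agent.H447.IFO

open Cfsg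
open scoped Matrix
open Cfsg.Agent.ClassicalGeometry.SympBasic Cfsg.Agent.ClassicalGeometry.SympSiegel
  Cfsg.Agent.ClassicalGeometry.SympAutSemi Cfsg.Agent.ClassicalGeometry.SympAutExists

variable {F : Type*} [Field F] {m : ℕ}

local notation "V" => (Fin m ⊕ Fin m → F)
local notation "G" => Matrix.symplecticGroup (Fin m) F
local notation "f" => sympForm m F

theorem center_sq (hm : 1 ≤ m) {z : G} (hz : z ∈ Subgroup.center G) : z * z = 1 := by
  obtain ⟨a, ha⟩ := smul_of_mem_center hz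
  have haa := sq_eq_one_of_center hm ha
  apply ext_smul
  intro v
  rw [mul_smul, ha, ha, smul_smul, haa, one_smul, one_smul]

theorem pow_odd_eq {M : Type*} [Group M] {z : M} (hz : z * z = 1) {r : ℕ} (hr : Odd r) : z ^ r = z := by
  obtain ⟨k, rfl⟩ := hr
  rw [pow_succ, pow_mul, pow_two, hz, one_pow, one_mul]

theorem exists_lift_odd (hm : 1 ≤ m) {r : ℕ} (hr : Odd r) {x : PSp m F} (hx : x ^ r = 1) :
    ∃ h : G, pr h = x ∧ h ^ r = 1 := by
  obtain ⟨h₀, rfl⟩ := pr_surj x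
  have hz : h₀ ^ r ∈ Subgroup.center G := by
    have : pr (1 : G) = pr (h₀ ^ r) := by rw [pr_pow, hx, pr_one]
    have := pr_eq_iff.1 this
    rwa [inv_one, one_mul] at this
  have hzz := center_sq hm hz
  refine ⟨h₀ * h₀ ^ r, ?_, ?_⟩
  · rw [pr_mul, pr_pow, hx, mul_one]
  · have h1 : (h₀ * h₀ ^ r) ^ r = h₀ ^ r * (h₀ ^ r) ^ r := (Commute.self_pow h₀ r).mul_pow r
    rw [h1, pow_odd_eq hzz hr, hzz]

theorem comm_of_pr (hm : 1 ≤ m) {r : ℕ} (hr : Odd r) {g h : G} (hg : g ^ r = 1)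
    (hc : pr g * pr h = pr h * pr g) : g * h = h * g := by
  rw [← pr_mul, ← pr_mul] at hc
  have hz := pr_eq_iff.1 hc.symm
  set z := (h * g)⁻¹ * (g * h) with hzdef
  have hzz := center_sq hm hz
  have h1 : h⁻¹ * g * h = g * z := by rw [hzdef]; group
  have h2 : (h⁻¹ * g * h) ^ r = 1 := by
    have : h⁻¹ * g * h = h⁻¹ * g * h⁻¹⁻¹ := by rw [inv_inv]
    rw [this, conj_pow, hg, mul_one, mul_inv_cancel]
  have hcomm : Commute g z := (Subgroup.mem_center_iff.1 hz g)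
  rw [h1, hcomm.mul_pow, hg, one_mul, pow_odd_eq hzz hr] at h2
  rw [h2, mul_one] at h1
  have h3 : h * (h⁻¹ * g * h) = h * g := by rw [h1]
  rw [← h3]
  group

/-- the lift of an elementary abelian subgroup of odd exponent -/
def lift (R : Subgroup (PSp m F)) (r : ℕ) (hm : 1 ≤ m) (hr : Odd r)
    (hc : ∀ x ∈ R, ∀ y ∈ R, x * y = y * x) : Subgroup G where
  carrier := {g | pr g ∈ R ∧ g ^ r = 1}
  one_mem' := ⟨by rw [pr_one]; exact R.one_mem, one_pow _⟩
  mul_mem' := by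
    rintro g h ⟨hg, hg1⟩ ⟨hh, hh1⟩
    have h1 : Commute g h := comm_of_pr hm hr hg1 (hc _ hg _ hh)
    exact ⟨by rw [pr_mul]; exact R.mul_mem hg hh, by rw [h1.mul_pow, hg1, hh1, one_mul]⟩
  inv_mem' := by
    rintro g ⟨hg, hg1⟩
    exact ⟨by rw [pr_inv]; exact R.inv_mem hg, by rw [inv_pow, hg1, inv_one]⟩

section

variable {R : Subgroup (PSp m F)} {r : ℕ} {hm : 1 ≤ m} {hr : Odd r} {hc : ∀ x ∈ R, ∀ y ∈ R, x * y = y * x}

theorem mem_lift {g : G} : g ∈ lift R r hm hr hc ↔ pr g ∈ R ∧ g ^ r = 1 := Iff.rfl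

theorem lift_comm {g h : G} (hg : g ∈ lift R r hm hr hc) (hh : h ∈ lift R r hm hr hc) : g * h = h * g :=
  comm_of_pr hm hr hg.2 (hc _ hg.1 _ hh.1)

theorem exists_mem_lift {x : PSp m F} (hx : x ∈ R) (hxr : x ^ r = 1) : ∃ g ∈ lift R r hm hr hc, pr g = x := by
  obtain ⟨g, hg, hg1⟩ := exists_lift_odd hm hr hxr
  exact ⟨g, ⟨by rw [hg]; exact hx, hg1⟩, hg⟩

theorem lift_pgroup [Finite F] : IsPGroup r (lift R r hm hr hc) := fun g => ⟨1, by
  rw [pow_one]
  exact Subtype.ext g.2.2⟩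

/-- the representation of the lift -/
def rep (H : Subgroup G) : H →* Module.End F V where
  toFun h := Matrix.mulVecLin ((h : G) : Matrix (Fin m ⊕ Fin m) (Fin m ⊕ Fin m) F)
  map_one' := Matrix.mulVecLin_one
  map_mul' _ _ := Matrix.mulVecLin_mul _ _

theorem rep_apply (H : Subgroup G) (h : H) (v : V) : rep H h v = (h : G) • v := rfl

end

/-- **`r ≠ char F`: an element of `Sp` inverting an abelian subgroup of exponent `r`.** -/
theorem exists_inverting_sp [Finite F] {r : ℕ} (hr : r.Prime) (hr2 : r ≠ 2) (hrF : (r : F) ≠ 0) (H : Subgroup G)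
    (hH : ∀ g ∈ H, g ^ r = 1) (hc : ∀ g ∈ H, ∀ h ∈ H, g * h = h * g) :
    ∃ γ : G, ∀ h ∈ H, γ * h * γ⁻¹ = h⁻¹ := by
  have : Fact r.Prime := ⟨hr⟩
  let _ : CommGroup H := { (inferInstance : Group H) with
    mul_comm := fun a b => Subtype.ext (hc a a.2 b b.2) }
  have hpg : IsPGroup r H := fun g => ⟨1, by
    rw [pow_one]
    exact Subtype.ext (hH g g.2)⟩
  obtain ⟨n, hn⟩ := IsPGroup.iff_card.1 hpg
  have hodd : Odd (Nat.card H) := by
    rw [hn]
    exact (hr.odd_of_ne_two hr2).pow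
  have hne : (Nat.card H : F) ≠ 0 := by
    rw [hn, Nat.cast_pow]
    exact pow_ne_zero n hrF
  have D : Dat (rep H) (sympBilin m F) := by
    refine ⟨fun h v w => ?_, fun v => ?_⟩
    · rw [sympBilin_apply, sympBilin_apply, rep_apply, rep_apply]
      exact form_smul _ _ _
    · rw [sympBilin_apply, sympForm_self]
  obtain ⟨g, hg1, hg2⟩ := D.exists_inverting hodd hne (fun u hu => eq_zero_of_forall_sympForm_left hu)
  have hg1' : ∀ u w : V, f (g u) (g w) = f u w := hg1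
  refine ⟨ofIso g hg1', fun h hh => ?_⟩
  rw [mul_inv_eq_iff_eq_mul]
  apply ext_smul
  intro v
  rw [mul_smul, mul_smul, ofIso_smul, ofIso_smul]
  exact hg2 ⟨h, hh⟩ v

/-- **`r ≠ char F`: an element of even order normalising `R`.** -/
theorem exists_even_normaliser [Finite F] (hm : 1 ≤ m) {r : ℕ} (hr : r.Prime) (hr2 : r ≠ 2) (hrF : (r : F) ≠ 0)
    (R : Subgroup (PSp m F)) (hx : ∀ x ∈ R, x ^ r = 1) (hc : ∀ x ∈ R, ∀ y ∈ R, x * y = y * x) :
    ∃ x : PSp m F, ∀ k ∈ R, x * k * x⁻¹ = k⁻¹ := by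
  have hro : Odd r := hr.odd_of_ne_two hr2
  obtain ⟨γ, hγ⟩ := exists_inverting_sp hr hr2 hrF (lift R r hm hro hc) (fun g hg => hg.2)
    (fun g hg h hh => lift_comm hg hh)
  refine ⟨pr γ, fun k hk => ?_⟩
  obtain ⟨h, hh, rfl⟩ := exists_mem_lift (hm := hm) (hr := hro) (hc := hc) hk (hx k hk)
  rw [← pr_inv, ← pr_mul, ← pr_mul, hγ h hh, pr_inv]

end Cfsg.Agent.H447.IFO
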